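import Mathlib
import Cfsg.Agent.Phan.Frame
import Cfsg.Agent.Classical.Unitary.InvolutionsThree

/-!
# Elements of order three and involutions of `SU_4(3)` under a central cover
-/

set_option autoImplicit false

namespace CfsgLib.Phan

open Cfsg CfsgLib.Unitary Matrix

variable {F : Type*} [Field F] [Fintype F] (hF : Fintype.card F = 3 ^ 2)
include hF

theorem three_eq_zero : (3 : F) = 0 := by
  have h := FiniteField.cast_card_eq_zero F
  rw [hF] at h
  push_cast at h
  exact eq_zero_of_pow_eq_zero (n := 2) (by linear_combination h)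

theorem two_ne : (2 : F) ≠ 0 := two_ne_zero_of_odd hF (by decide)

theorem neg_one_ne_one : (-1 : F) ≠ 1 := fun h => two_ne hF (by linear_combination -h)

theorem center_pow_four {c : ↥(SU 4 F 3)} (hc : c ∈ Subgroup.center ↥(SU 4 F 3)) : c ^ 4 = 1 := by
  have h : (⟨c, hc⟩ : Subgroup.center ↥(SU 4 F 3)) ^ Nat.card (Subgroup.center ↥(SU 4 F 3)) = 1 :=
    pow_card_eq_one'
  rw [card_center_SU hF (by omega), show Nat.gcd 4 (3 + 1) = 4 from rfl] at h
  exact congrArg Subtype.val h

theorem closure_cube_eq_top : Subgroup.closure {x : ↥(SU 2 F 3) | x ^ 3 = 1} = ⊤ := by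
  refine top_unique ?_
  rw [← transvGroup_eq_top hF (n := 2) (by omega)]
  refine (Subgroup.closure_le _).2 ?_
  rintro A ⟨v, c, hv, hA⟩
  refine Subgroup.subset_closure (sv_ext fun x => ?_)
  have h : ∀ y, sv A y = y + (c * hermForm 2 F 3 y v) • v := fun y => by
    show _root_.Matrix.mulVec _ y = _
    rw [hA, unitaryTransvection_eq, rankOne_mulVec, smul_smul, mul_comm]
  rw [pow_succ, pow_two, sv_mul, sv_mul, h, h, h,
    show sv (1 : ↥(SU 2 F 3)) x = x from Matrix.one_mulVec _]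
  simp only [herm_add_left, herm_smul_left, hv, mul_zero, add_zero]
  rw [add_assoc, add_assoc, ← add_smul, ← add_smul]
  rw [show c * hermForm 2 F 3 x v + (c * hermForm 2 F 3 x v + c * hermForm 2 F 3 x v) = 0 by
    linear_combination (c * hermForm 2 F 3 x v) * three_eq_zero hF, zero_smul, add_zero]

theorem commute_of_image {G : Type*} [Group G] (g : ↥(SU 4 F 3) →* G)
    (hg : g.ker ≤ Subgroup.center ↥(SU 4 F 3)) {a b : ↥(SU 4 F 3)} (hb : b ^ 3 = 1)
    (h : Commute (g a) (g b)) : Commute a b := by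
  set c := a * b * a⁻¹ * b⁻¹ with hc
  have hcz : c ∈ Subgroup.center ↥(SU 4 F 3) := hg (MonoidHom.mem_ker.2 (by
    rw [hc, map_mul, map_mul, map_mul, map_inv, map_inv, h.eq]; group))
  have h1 : a * b * a⁻¹ = c * b := by rw [hc]; group
  have h3 : c ^ 3 = 1 := by
    have h2 : (a * b * a⁻¹) ^ 3 = 1 := by rw [conj_pow, hb, mul_one, mul_inv_cancel]
    have hcb : Commute c b := ((Subgroup.mem_center_iff.1 hcz b)).symm
    rwa [h1, hcb.mul_pow, hb, mul_one] at h2
  have h4 := center_pow_four hF hcz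
  have h0 : c = 1 := by rwa [pow_succ, h3, one_mul] at h4
  rw [h0, one_mul, mul_inv_eq_iff_eq_mul] at h1
  exact h1

/-- The subgroup generated by the lifts of order three. -/
def lifts {G : Type*} [Group G] (g : ↥(SU 4 F 3) →* G) (U : Subgroup G) : Subgroup ↥(SU 4 F 3) :=
  Subgroup.closure {x | x ^ 3 = 1 ∧ g x ∈ U}

theorem map_lifts_of_range {G : Type*} [Group G] (g : ↥(SU 4 F 3) →* G)
    (hg : g.ker ≤ Subgroup.center ↥(SU 4 F 3)) (φ : ↥(SU 2 F 3) →* G) (hφ : φ.range ≤ g.range) :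
    (lifts g φ.range).map g = φ.range := by
  refine le_antisymm ?_ ?_
  · rw [lifts, MonoidHom.map_closure, Subgroup.closure_le]
    rintro _ ⟨x, ⟨-, hx⟩, rfl⟩
    exact hx
  · rw [MonoidHom.range_eq_map, ← closure_cube_eq_top hF, MonoidHom.map_closure, Subgroup.closure_le]
    rintro _ ⟨u, hu, rfl⟩
    obtain ⟨y, hy⟩ := hφ ⟨u, rfl⟩
    have hgy : (g y) ^ 3 = 1 := by rw [hy, ← map_pow, hu, map_one]
    have hz : y ^ 3 ∈ Subgroup.center ↥(SU 4 F 3) := hg (MonoidHom.mem_ker.2 (by rw [map_pow, hgy]))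
    refine ⟨y ^ 4, Subgroup.subset_closure ⟨?_, ?_⟩, ?_⟩
    · rw [← pow_mul, mul_comm, pow_mul, center_pow_four hF hz]
    · rw [map_pow, pow_succ, hgy, one_mul, hy]
      exact Subgroup.subset_closure ⟨u, hu, rfl⟩
    · rw [map_pow, pow_succ, hgy, one_mul, hy]

theorem commute_lifts {G : Type*} [Group G] (g : ↥(SU 4 F 3) →* G)
    (hg : g.ker ≤ Subgroup.center ↥(SU 4 F 3)) {U : Subgroup G} {t : ↥(SU 4 F 3)}
    (ht : ∀ u ∈ U, Commute (g t) u) {x : ↥(SU 4 F 3)} (hx : x ∈ lifts g U) : Commute t x := by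
  induction hx using Subgroup.closure_induction with
  | mem y hy => exact commute_of_image hF g hg hy.1 (ht _ hy.2)
  | one => exact Commute.one_right t
  | mul y z _ _ h1 h2 => exact h1.mul_right h2
  | inv y _ h1 => exact h1.inv_right

theorem commute_lifts_lifts {G : Type*} [Group G] (g : ↥(SU 4 F 3) →* G)
    (hg : g.ker ≤ Subgroup.center ↥(SU 4 F 3)) {U U' : Subgroup G} (h : ∀ u ∈ U, ∀ u' ∈ U', Commute u u')
    {x y : ↥(SU 4 F 3)} (hx : x ∈ lifts g U) (hy : y ∈ lifts g U') : Commute x y := by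
  refine commute_lifts hF g hg (fun u' hu' => ?_) hy
  have hgx : g x ∈ U := by
    have : lifts g U ≤ U.comap g := (Subgroup.closure_le _).2 fun z hz => hz.2
    exact this hx
  exact h _ hgx _ hu'

/-- A sign as a scalar. -/
def sgn (b : Bool) : F := if b then -1 else 1

theorem sgn_inj {a b : Bool} (h : (sgn b : F) = sgn a) : b = a := by
  have h1 := neg_one_ne_one hF
  cases a <;> cases b <;> simp_all [sgn, eq_comm]

/-- Joint orthonormal eigenframe of two commuting involutions. -/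
theorem exists_sign_frame {t T : ↥(SU 4 F 3)} (ht : t * t = 1) (hT : T * T = 1) (htT : Commute t T) :
    ∃ (f : Fin 4 → Fin 4 → F), Orthonorm 3 f ∧
      ∀ i, ∃ a b : Bool, sv t (f i) = (sgn a : F) • f i ∧ sv T (f i) = (sgn b : F) • f i := by
  have h4 : (4 : F) = 1 := by linear_combination three_eq_zero hF
  have hsq : ∀ (s : ↥(SU 4 F 3)), s * s = 1 → ∀ x, sv s (sv s x) = x := fun s hs x => by
    rw [← sv_mul, hs]; exact Matrix.one_mulVec _
  have split : ∀ (s : ↥(SU 4 F 3)), s * s = 1 → ∀ u : Fin 4 → F, hermForm 4 F 3 u u ≠ 0 →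
      ∃ a : Bool, sv s (u + (sgn a : F) • sv s u) = (sgn a : F) • (u + (sgn a : F) • sv s u) ∧
        hermForm 4 F 3 (u + (sgn a : F) • sv s u) (u + (sgn a : F) • sv s u) ≠ 0 := by
    intro s hs u hu
    have he : ∀ a : Bool, sv s (u + (sgn a : F) • sv s u) = (sgn a : F) • (u + (sgn a : F) • sv s u) := by
      intro a
      rw [sv_add, sv_smul, hsq s hs]
      cases a <;> simp [sgn] <;> abel
    by_contra h
    push Not at h
    have h1 := h true (he true)
    have h2 := h false (he false)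
    simp only [sgn, if_true, Bool.false_eq_true, if_false, herm_add_left, herm_add_right hF, herm_smul_left,
      herm_smul_right, sv_herm] at h1 h2
    apply hu
    linear_combination h1 + h2 - hermForm 4 F 3 u u * h4
  obtain ⟨f, hf, hP⟩ := exists_basis_of_step hF
    (fun x => ∃ a b : Bool, sv t x = (sgn a : F) • x ∧ sv T x = (sgn b : F) • x) (by
      intro k hk f hf hP
      obtain ⟨u, -, hu, huf⟩ := exists_orthonorm_next hF (isNondeg_top hF) hf (fun _ => trivial) (by simpa using hk)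
      have perp : ∀ (s : ↥(SU 4 F 3)) (x : Fin 4 → F), s * s = 1 → (∀ i, ∃ a : Bool, sv s (f i) = (sgn a : F) • f i) →
          (∀ i, hermForm 4 F 3 x (f i) = 0) → ∀ (c : F) i, hermForm 4 F 3 (x + c • sv s x) (f i) = 0 := by
        intro s x hs hfs hx c i
        obtain ⟨a, ha⟩ := hfs i
        have h0 : hermForm 4 F 3 (sv s x) (f i) = 0 := by
          conv_lhs => rw [show f i = sv s ((sgn a : F) • f i) by rw [← ha, hsq s hs]]
          rw [sv_herm, herm_smul_right, hx, mul_zero]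
        rw [herm_add_left, herm_smul_left, hx, h0, mul_zero, add_zero]
      obtain ⟨a, hxt, hx0⟩ := split t ht u (by rw [hu]; exact one_ne_zero)
      set x := u + (sgn a : F) • sv t u
      have hxf : ∀ i, hermForm 4 F 3 x (f i) = 0 :=
        perp t u ht (fun i => (hP i).imp fun a h => h.elim fun b h' => h'.1) huf _
      clear_value x
      obtain ⟨b, hyT, hy0⟩ := split T hT x hx0
      set y := x + (sgn b : F) • sv T x with hy
      have hyt : sv t y = (sgn a : F) • y := by
        rw [hy, sv_add, sv_smul, ← sv_mul, htT.eq, sv_mul, hxt, sv_smul, smul_add, smul_comm]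
      have hyf : ∀ i, hermForm 4 F 3 y (f i) = 0 :=
        perp T x hT (fun i => (hP i).elim fun a h => h.imp fun b h' => h'.2) hxf _
      obtain ⟨c, -, hc⟩ := exists_unit_smul hF hy0
      exact ⟨c • y, ⟨a, b, by rw [sv_smul, hyt, smul_comm], by rw [sv_smul, hyT, smul_comm]⟩, hc,
        fun i => by rw [herm_smul_left, hyf, mul_zero]⟩)
  exact ⟨f, hf, hP⟩

theorem mem_center_of_scalar {f : Fin 4 → Fin 4 → F} (hf : Orthonorm 3 f) {t : ↥(SU 4 F 3)} {c : F}
    (h : ∀ i, sv t (f i) = c • f i) : t ∈ Subgroup.center ↥(SU 4 F 3) := by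
  have hx : ∀ x, sv t x = c • x := fun x => by
    rw [expand_orthonorm hF hf x, sv_sum, Finset.smul_sum]
    exact Finset.sum_congr rfl fun i _ => by rw [sv_smul, h, smul_comm]
  exact Subgroup.mem_center_iff.2 fun y => sv_ext fun x => by rw [sv_mul, sv_mul, hx, hx, sv_smul]

theorem parity_of_signs {f : Fin 4 → Fin 4 → F} (hf : Orthonorm 3 f) {t : ↥(SU 4 F 3)} {a : Fin 4 → Bool}
    (h : ∀ i, sv t (f i) = (sgn (a i) : F) • f i) : xor (xor (a 0) (a 1)) (xor (a 2) (a 3)) = false := by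
  have hp := prod_eigen_eq_one hF hf t h
  rw [Fin.prod_univ_four] at hp
  have hm : ∀ x y : Bool, (sgn x : F) * sgn y = sgn (xor x y) := fun x y => by
    cases x <;> cases y <;> simp [sgn]
  rw [hm, mul_assoc, hm, hm] at hp
  exact sgn_inj hF (hp.trans (by simp [sgn]))

theorem not_const_of_signs {f : Fin 4 → Fin 4 → F} (hf : Orthonorm 3 f) {t : ↥(SU 4 F 3)} {a : Fin 4 → Bool}
    (h : ∀ i, sv t (f i) = (sgn (a i) : F) • f i) (ht : t ∉ Subgroup.center ↥(SU 4 F 3)) (b : Bool) :
    a ≠ fun _ => b := fun hb => ht (mem_center_of_scalar hF hf (c := sgn b) fun i => by rw [h, hb])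

omit hF in
omit [Fintype F] in
theorem sign_pattern_one : ∀ a : Fin 4 → Bool, xor (xor (a 0) (a 1)) (xor (a 2) (a 3)) = false →
    (∀ b, a ≠ fun _ => b) → ∃ p : Equiv.Perm (Fin 4), (a ∘ p) = ![true, true, false, false] := by
  decide

omit hF in
omit [Fintype F] in
theorem sign_pattern_two : ∀ b : Fin 4 → Bool, xor (xor (b 0) (b 1)) (xor (b 2) (b 3)) = false →
    (∀ c, b ≠ fun _ => c) → (∀ c, (fun i => xor (![true, true, false, false] i) (b i)) ≠ fun _ => c) →
    ∃ p : Equiv.Perm (Fin 4), (![true, true, false, false] ∘ p) = ![true, true, false, false] ∧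
      (b ∘ p) = ![false, true, true, false] := by
  decide

theorem exists_frame_involution {t : ↥(SU 4 F 3)} (ht : t * t = 1) (htc : t ∉ Subgroup.center ↥(SU 4 F 3)) :
    ∃ v : Fin 4 → Fin 4 → F, Orthonorm 3 v ∧
      ∀ i, sv t (v i) = (sgn (![true, true, false, false] i) : F) • v i := by
  obtain ⟨f, hf, hP⟩ := exists_sign_frame hF ht ht (Commute.refl t)
  choose a b ha hb using hP
  obtain ⟨p, hp⟩ := sign_pattern_one a (parity_of_signs hF hf ha) (not_const_of_signs hF hf ha htc)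
  exact ⟨fun i => f (p i), orthonorm_perm hF hf p, fun i => by rw [ha, ← hp]; rfl⟩

theorem exists_frame_pair {t T : ↥(SU 4 F 3)} (ht : t * t = 1) (hT : T * T = 1) (htT : Commute t T)
    (htc : t ∉ Subgroup.center ↥(SU 4 F 3)) (hTc : T ∉ Subgroup.center ↥(SU 4 F 3))
    (htTc : t * T ∉ Subgroup.center ↥(SU 4 F 3)) :
    ∃ v : Fin 4 → Fin 4 → F, Orthonorm 3 v ∧
      (∀ i, sv t (v i) = (sgn (![true, true, false, false] i) : F) • v i) ∧
      ∀ i, sv T (v i) = (sgn (![false, true, true, false] i) : F) • v i := by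
  obtain ⟨f, hf, hP⟩ := exists_sign_frame hF ht hT htT
  choose a b ha hb using hP
  obtain ⟨p, hp⟩ := sign_pattern_one a (parity_of_signs hF hf ha) (not_const_of_signs hF hf ha htc)
  have hfp := orthonorm_perm hF hf p
  have hb' : ∀ i, sv T (f (p i)) = (sgn (b (p i)) : F) • f (p i) := fun i => hb _
  have hab : ∀ i, sv (t * T) (f (p i)) = (sgn (xor (![true, true, false, false] i) (b (p i))) : F) • f (p i) := by
    intro i
    rw [sv_mul, hb', sv_smul, ha, smul_smul, ← hp]
    congr 1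
    show (sgn (b (p i)) : F) * sgn (a (p i)) = sgn (xor (a (p i)) (b (p i)))
    cases a (p i) <;> cases b (p i) <;> simp [sgn]
  obtain ⟨r, hr1, hr2⟩ := sign_pattern_two (fun i => b (p i)) (parity_of_signs hF hfp hb')
    (not_const_of_signs hF hfp hb' hTc) (not_const_of_signs hF hfp hab htTc)
  refine ⟨fun i => f (p (r i)), orthonorm_perm hF hfp r, fun i => ?_, fun i => ?_⟩
  · rw [ha, show a (p (r i)) = (a ∘ p) (r i) from rfl, hp]
    have := congrFun hr1 i
    simp only [Function.comp_apply] at this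
    rw [this]
  · rw [hb', show b (p (r i)) = ((fun i => b (p i)) ∘ r) i from rfl, hr2]

theorem sv_fix_sign {v : Fin 4 → Fin 4 → F} (hv : Orthonorm 3 v) {t y : ↥(SU 4 F 3)} {a : Fin 4 → Bool}
    (hvt : ∀ i, sv t (v i) = (sgn (a i) : F) • v i) {b : Bool} (hy : ∀ i, a i = b → sv y (v i) = v i)
    {x : Fin 4 → F} (hx : sv t x = (sgn b : F) • x) : sv y x = x := by
  rw [expand_orthonorm hF hv x, sv_sum]
  refine Finset.sum_congr rfl fun i _ => ?_
  by_cases hab : a i = b
  · rw [sv_smul, hy i hab]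
  · rw [herm_eq_zero_of_eigen hF hx (hvt i) (fun h => hab ?_), zero_smul]
    · exact Matrix.mulVec_zero _
    · refine sgn_inj hF ?_
      revert h
      cases a i <;> cases b <;> simp [sgn] <;> intro h <;> simp_all [show (-1 : F) ^ 3 = -1 by norm_num]

/-- Two frames with the same signs for an involution give the same plane stabilisers. -/
theorem stab_pair_congr {v w : Fin 4 → Fin 4 → F} (hv : Orthonorm 3 v) (hw : Orthonorm 3 w) {t : ↥(SU 4 F 3)}
    (hvt : ∀ i, sv t (v i) = (sgn (![true, true, false, false] i) : F) • v i)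
    (hwt : ∀ i, sv t (w i) = (sgn (![true, true, false, false] i) : F) • w i) :
    stab (q := 3) (v 2) ⊓ stab (q := 3) (v 3) = stab (q := 3) (w 2) ⊓ stab (q := 3) (w 3) ∧
    stab (q := 3) (v 0) ⊓ stab (q := 3) (v 1) = stab (q := 3) (w 0) ⊓ stab (q := 3) (w 1) := by
  have key : ∀ {v w : Fin 4 → Fin 4 → F}, Orthonorm 3 v →
      (∀ i, sv t (v i) = (sgn (![true, true, false, false] i) : F) • v i) →
      (∀ i, sv t (w i) = (sgn (![true, true, false, false] i) : F) • w i) →
      stab (q := 3) (v 2) ⊓ stab (q := 3) (v 3) ≤ stab (q := 3) (w 2) ⊓ stab (q := 3) (w 3) ∧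
      stab (q := 3) (v 0) ⊓ stab (q := 3) (v 1) ≤ stab (q := 3) (w 0) ⊓ stab (q := 3) (w 1) := by
    intro v w hv hvt hwt
    refine ⟨fun y hy => ?_, fun y hy => ?_⟩
    · have h : ∀ i, (![true, true, false, false] : Fin 4 → Bool) i = false → sv y (v i) = v i := fun i hi => by
        fin_cases i <;> simp at hi ⊢
        · exact hy.1
        · exact hy.2
      exact ⟨sv_fix_sign hF hv hvt h (hwt 2), sv_fix_sign hF hv hvt h (hwt 3)⟩
    · have h : ∀ i, (![true, true, false, false] : Fin 4 → Bool) i = true → sv y (v i) = v i := fun i hi => by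
        fin_cases i <;> simp at hi ⊢
        · exact hy.1
        · exact hy.2
      exact ⟨sv_fix_sign hF hv hvt h (hwt 0), sv_fix_sign hF hv hvt h (hwt 1)⟩
  exact ⟨le_antisymm (key hv hvt hwt).1 (key hw hwt hvt).1, le_antisymm (key hv hvt hwt).2 (key hw hwt hvt).2⟩

omit hF in
omit [Fintype F] in
/-- A matrix in dimension two commuting with two non-commuting ones is scalar. -/
theorem scalar_of_commute_two {X Y Z : Matrix (Fin 2) (Fin 2) F} (hX : Commute X Z) (hY : Commute Y Z)
    (hXY : ¬ Commute X Y) : Z 0 1 = 0 ∧ Z 1 0 = 0 ∧ Z 0 0 = Z 1 1 := by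
  have a1 := congrFun (congrFun hX.eq 0) 0
  have a2 := congrFun (congrFun hX.eq 0) 1
  have a3 := congrFun (congrFun hX.eq 1) 0
  have b1 := congrFun (congrFun hY.eq 0) 0
  have b2 := congrFun (congrFun hY.eq 0) 1
  have b3 := congrFun (congrFun hY.eq 1) 0
  simp only [Matrix.mul_apply, Fin.sum_univ_two] at a1 a2 a3 b1 b2 b3
  have hne : ¬ (X 0 1 * Y 1 0 = Y 0 1 * X 1 0 ∧ (X 0 0 - X 1 1) * Y 0 1 = X 0 1 * (Y 0 0 - Y 1 1) ∧
      (X 0 0 - X 1 1) * Y 1 0 = X 1 0 * (Y 0 0 - Y 1 1)) := by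
    rintro ⟨h1, h2, h3⟩
    refine hXY ?_
    ext i j
    fin_cases i <;> fin_cases j <;> simp [Matrix.mul_apply, Fin.sum_univ_two]
    · linear_combination h1
    · linear_combination h2
    · linear_combination -h3
    · linear_combination -h1
  refine ⟨?_, ?_, ?_⟩
  · by_contra h
    have e1 : X 1 0 = X 0 1 * (Z 1 0 / Z 0 1) := by field_simp; linear_combination -a1
    have e2 : X 0 0 - X 1 1 = X 0 1 * ((Z 0 0 - Z 1 1) / Z 0 1) := by field_simp; linear_combination a2
    have f1 : Y 1 0 = Y 0 1 * (Z 1 0 / Z 0 1) := by field_simp; linear_combination -b1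
    have f2 : Y 0 0 - Y 1 1 = Y 0 1 * ((Z 0 0 - Z 1 1) / Z 0 1) := by field_simp; linear_combination b2
    exact hne ⟨by rw [e1, f1]; ring, by rw [e2, f2]; ring, by rw [e2, f2, e1, f1]; ring⟩
  · by_contra h
    have e1 : X 0 1 = X 1 0 * (Z 0 1 / Z 1 0) := by field_simp; linear_combination a1
    have e2 : X 0 0 - X 1 1 = X 1 0 * ((Z 0 0 - Z 1 1) / Z 1 0) := by field_simp; linear_combination -a3
    have f1 : Y 0 1 = Y 1 0 * (Z 0 1 / Z 1 0) := by field_simp; linear_combination b1
    have f2 : Y 0 0 - Y 1 1 = Y 1 0 * ((Z 0 0 - Z 1 1) / Z 1 0) := by field_simp; linear_combination -b3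
    exact hne ⟨by rw [e1, f1]; ring, by rw [e2, f2, e1, f1]; ring, by rw [e2, f2]; ring⟩
  · by_contra h
    have h' : Z 0 0 - Z 1 1 ≠ 0 := sub_ne_zero.2 h
    have e1 : X 0 1 = (X 0 0 - X 1 1) * (Z 0 1 / (Z 0 0 - Z 1 1)) := by field_simp; linear_combination -a2
    have e2 : X 1 0 = (X 0 0 - X 1 1) * (Z 1 0 / (Z 0 0 - Z 1 1)) := by field_simp; linear_combination a3
    have f1 : Y 0 1 = (Y 0 0 - Y 1 1) * (Z 0 1 / (Z 0 0 - Z 1 1)) := by field_simp; linear_combination -b2
    have f2 : Y 1 0 = (Y 0 0 - Y 1 1) * (Z 1 0 / (Z 0 0 - Z 1 1)) := by field_simp; linear_combination b3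
    exact hne ⟨by rw [e1, e2, f1, f2]; ring, by rw [e1, f1]; ring, by rw [e2, f2]; ring⟩

theorem eq_one_two_of_cube {Z : Matrix (Fin 2) (Fin 2) F} (h : Z 0 1 = 0 ∧ Z 1 0 = 0 ∧ Z 0 0 = Z 1 1)
    (h3 : Z * Z * Z = 1) : Z = 1 := by
  obtain ⟨h01, h10, hd⟩ := h
  have h00 := congrFun (congrFun h3 0) 0
  simp [Matrix.mul_apply, Fin.sum_univ_two, h01, h10] at h00
  have h1 : (Z 0 0 - 1) ^ 3 = 0 := by
    linear_combination h00 + (Z 0 0 - Z 0 0 ^ 2) * three_eq_zero hF
  have h2 : Z 0 0 = 1 := sub_eq_zero.1 (eq_zero_of_pow_eq_zero h1)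
  ext i j
  fin_cases i <;> fin_cases j <;> simp [h01, h10, h2, ← hd]

/-- Two commuting families of elements of order three centralising an involution sit in the two planes. -/
theorem split_commuting {v : Fin 4 → Fin 4 → F} (hv : Orthonorm 3 v) {t : ↥(SU 4 F 3)}
    (hvt : ∀ i, sv t (v i) = (sgn (![true, true, false, false] i) : F) • v i) (S S' : Set ↥(SU 4 F 3))
    (hS3 : ∀ x ∈ S, x ^ 3 = 1) (hS3' : ∀ x ∈ S', x ^ 3 = 1) (hSt : ∀ x ∈ S, Commute t x)
    (hSt' : ∀ x ∈ S', Commute t x) (hSS : ∀ x ∈ S, ∀ y ∈ S', Commute x y)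
    (hS : ∃ x ∈ S, ∃ y ∈ S, ¬ Commute x y) (hS' : ∃ x ∈ S', ∃ y ∈ S', ¬ Commute x y) :
    (Subgroup.closure S ≤ stab (q := 3) (v 2) ⊓ stab (q := 3) (v 3) ∧
      Subgroup.closure S' ≤ stab (q := 3) (v 0) ⊓ stab (q := 3) (v 1)) ∨
    (Subgroup.closure S ≤ stab (q := 3) (v 0) ⊓ stab (q := 3) (v 1) ∧
      Subgroup.closure S' ≤ stab (q := 3) (v 2) ⊓ stab (q := 3) (v 3)) := by
  let T : Fin 4 → Bool := ![true, true, false, false]
  have zeros : ∀ y, Commute t y → ∀ i j, T i ≠ T j → fmat v y i j = 0 := by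
    intro y hy i j hij
    have h1 : sv t (sv y (v j)) = (sgn (T j) : F) • sv y (v j) := by
      rw [← sv_mul, hy.eq, sv_mul, hvt, sv_smul]
    refine herm_eq_zero_of_eigen hF h1 (hvt i) ?_
    revert hij
    show T i ≠ T j → (sgn (T j) : F) * sgn (T i) ^ 3 ≠ 1
    cases T i <;> cases T j <;> simp [sgn, show (-1 : F) ^ 3 = -1 by norm_num, neg_one_ne_one hF]
  let top : ↥(SU 4 F 3) → Matrix (Fin 2) (Fin 2) F := fun y => (fmat v y).submatrix ![0, 1] ![0, 1]
  let bot : ↥(SU 4 F 3) → Matrix (Fin 2) (Fin 2) F := fun y => (fmat v y).submatrix ![2, 3] ![2, 3]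
  have mulT : ∀ y z, Commute t y → Commute t z → top (y * z) = top y * top z ∧ bot (y * z) = bot y * bot z := by
    intro y z hy hz
    have z20 := zeros z hz 2 0 (by decide)
    have z30 := zeros z hz 3 0 (by decide)
    have z21 := zeros z hz 2 1 (by decide)
    have z31 := zeros z hz 3 1 (by decide)
    have z02 := zeros z hz 0 2 (by decide)
    have z12 := zeros z hz 1 2 (by decide)
    have z03 := zeros z hz 0 3 (by decide)
    have z13 := zeros z hz 1 3 (by decide)
    have hm : ∀ i j, fmat v (y * z) i j = fmat v y i 0 * fmat v z 0 j + fmat v y i 1 * fmat v z 1 j +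
        fmat v y i 2 * fmat v z 2 j + fmat v y i 3 * fmat v z 3 j := fun i j => by
      rw [fmat_mul hF hv, Matrix.mul_apply, Fin.sum_univ_four]
    constructor <;> ext i j <;> rw [Matrix.mul_apply, Fin.sum_univ_two] <;>
      simp only [top, bot, Matrix.submatrix_apply, hm, Matrix.cons_val_zero, Matrix.cons_val_one,
        Matrix.cons_val_fin_one]
    all_goals
      fin_cases j <;>
        simp only [Fin.zero_eta, Fin.mk_one, Matrix.cons_val_zero, Matrix.cons_val_one, Matrix.cons_val_fin_one,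
          z20, z30, z21, z31, z02, z12, z03, z13, mul_zero, add_zero, zero_add]
  have comm : ∀ x y, Commute t x → Commute t y → Commute x y →
      Commute (top x) (top y) ∧ Commute (bot x) (bot y) := fun x y hx hy hxy =>
    ⟨by show _ = _; rw [← (mulT x y hx hy).1, ← (mulT y x hy hx).1, hxy.eq],
     by show _ = _; rw [← (mulT x y hx hy).2, ← (mulT y x hy hx).2, hxy.eq]⟩
  have comm' : ∀ x y, Commute t x → Commute t y → Commute (top x) (top y) → Commute (bot x) (bot y) →
      Commute x y := by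
    intro x y hx hy h1 h2
    refine fmat_injective hF hv ?_
    have e1 : top (x * y) = top (y * x) := by rw [(mulT x y hx hy).1, (mulT y x hy hx).1, h1.eq]
    have e2 : bot (x * y) = bot (y * x) := by rw [(mulT x y hx hy).2, (mulT y x hy hx).2, h2.eq]
    have z1 := zeros _ (hx.mul_right hy)
    have z2 := zeros _ (hy.mul_right hx)
    ext i j
    fin_cases i <;> fin_cases j
    all_goals first
      | exact congrFun (congrFun e1 0) 0
      | exact congrFun (congrFun e1 0) 1
      | exact congrFun (congrFun e1 1) 0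
      | exact congrFun (congrFun e1 1) 1
      | exact congrFun (congrFun e2 0) 0
      | exact congrFun (congrFun e2 0) 1
      | exact congrFun (congrFun e2 1) 0
      | exact congrFun (congrFun e2 1) 1
      | exact (z1 _ _ (by decide)).trans (z2 _ _ (by decide)).symm
  have one : ∀ z, Commute t z → z ^ 3 = 1 → top z * top z * top z = 1 ∧ bot z * bot z * bot z = 1 := by
    intro z hz h3
    have h1 : z * z * z = 1 := by rwa [← pow_two, ← pow_succ]
    rw [← (mulT z z hz hz).1, ← (mulT _ z (hz.mul_right hz) hz).1, ← (mulT z z hz hz).2,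
      ← (mulT _ z (hz.mul_right hz) hz).2, h1]
    constructor
    · show (fmat v (1 : ↥(SU 4 F 3))).submatrix ![0, 1] ![0, 1] = 1
      rw [fmat_one hF hv]
      exact Matrix.submatrix_one _ (by decide)
    · show (fmat v (1 : ↥(SU 4 F 3))).submatrix ![2, 3] ![2, 3] = 1
      rw [fmat_one hF hv]
      exact Matrix.submatrix_one _ (by decide)
  have fixT : ∀ z, Commute t z → top z = 1 → z ∈ stab (q := 3) (v 0) ⊓ stab (q := 3) (v 1) := by
    intro z hz h
    have e := fun i j => congrFun (congrFun h i) j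
    have zz := zeros z hz
    refine ⟨(mem_stab).2 ?_, (mem_stab).2 ?_⟩ <;> rw [sv_eq_sum_fmat hF hv, Fin.sum_univ_four]
    · simp [show fmat v z 0 0 = 1 from e 0 0, show fmat v z 1 0 = 0 from e 1 0, zz 2 0 (by decide), zz 3 0 (by decide)]
    · simp [show fmat v z 0 1 = 0 from e 0 1, show fmat v z 1 1 = 1 from e 1 1, zz 2 1 (by decide), zz 3 1 (by decide)]
  have fixB : ∀ z, Commute t z → bot z = 1 → z ∈ stab (q := 3) (v 2) ⊓ stab (q := 3) (v 3) := by
    intro z hz h
    have e := fun i j => congrFun (congrFun h i) j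
    have zz := zeros z hz
    refine ⟨(mem_stab).2 ?_, (mem_stab).2 ?_⟩ <;> rw [sv_eq_sum_fmat hF hv, Fin.sum_univ_four]
    · simp [show fmat v z 2 2 = 1 from e 0 0, show fmat v z 3 2 = 0 from e 1 0, zz 0 2 (by decide), zz 1 2 (by decide)]
    · simp [show fmat v z 2 3 = 0 from e 0 1, show fmat v z 3 3 = 1 from e 1 1, zz 0 3 (by decide), zz 1 3 (by decide)]
  obtain ⟨x, hx, y, hy, hxy⟩ := hS
  obtain ⟨x', hx', y', hy', hxy'⟩ := hS'
  by_cases hT : Commute (top x) (top y)
  · have hB : ¬ Commute (bot x) (bot y) := fun hB => hxy (comm' x y (hSt x hx) (hSt y hy) hT hB)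
    have h1 : ∀ z ∈ S', bot z = 1 := fun z hz => eq_one_two_of_cube hF
      (scalar_of_commute_two (comm x z (hSt x hx) (hSt' z hz) (hSS x hx z hz)).2
        (comm y z (hSt y hy) (hSt' z hz) (hSS y hy z hz)).2 hB) (one z (hSt' z hz) (hS3' z hz)).2
    have hT' : ¬ Commute (top x') (top y') := fun hT' => hxy' (comm' x' y' (hSt' x' hx') (hSt' y' hy') hT'
      (by rw [h1 x' hx', h1 y' hy']))
    have h2 : ∀ z ∈ S, top z = 1 := fun z hz => eq_one_two_of_cube hF
      (scalar_of_commute_two (comm x' z (hSt' x' hx') (hSt z hz) (hSS z hz x' hx').symm).1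
        (comm y' z (hSt' y' hy') (hSt z hz) (hSS z hz y' hy').symm).1 hT') (one z (hSt z hz) (hS3 z hz)).1
    exact Or.inr ⟨(Subgroup.closure_le _).2 fun z hz => fixT z (hSt z hz) (h2 z hz),
      (Subgroup.closure_le _).2 fun z hz => fixB z (hSt' z hz) (h1 z hz)⟩
  · have h1 : ∀ z ∈ S', top z = 1 := fun z hz => eq_one_two_of_cube hF
      (scalar_of_commute_two (comm x z (hSt x hx) (hSt' z hz) (hSS x hx z hz)).1
        (comm y z (hSt y hy) (hSt' z hz) (hSS y hy z hz)).1 hT) (one z (hSt' z hz) (hS3' z hz)).1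
    have hB' : ¬ Commute (bot x') (bot y') := fun hB' => hxy' (comm' x' y' (hSt' x' hx') (hSt' y' hy')
      (by rw [h1 x' hx', h1 y' hy']) hB')
    have h2 : ∀ z ∈ S, bot z = 1 := fun z hz => eq_one_two_of_cube hF
      (scalar_of_commute_two (comm x' z (hSt' x' hx') (hSt z hz) (hSS z hz x' hx').symm).2
        (comm y' z (hSt' y' hy') (hSt z hz) (hSS z hz y' hy').symm).2 hB') (one z (hSt z hz) (hS3 z hz)).2
    exact Or.inl ⟨(Subgroup.closure_le _).2 fun z hz => fixB z (hSt z hz) (h2 z hz),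
      (Subgroup.closure_le _).2 fun z hz => fixT z (hSt' z hz) (h1 z hz)⟩

end CfsgLib.Phan
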