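import Mathlib
import Cfsg.Agent.Phan.Lifts

/-!
# The chart of two standard pairs over the field with nine elements
-/

set_option autoImplicit false

namespace CfsgLib.Phan

open Cfsg CfsgLib.Unitary Matrix

variable {F : Type*} [Field F] [Fintype F] (hF : Fintype.card F = 3 ^ 2)
include hF

omit hF in
omit [Fintype F] in
theorem neg_one_norm : (-1 : F) ^ (3 + 1) = 1 := by norm_num

omit hF in
omit [Fintype F] in
/-- The scalar minus one. -/
def negN : {x : F // x ^ (3 + 1) = 1} := ⟨-1, neg_one_norm⟩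

/-- The central involution and two elements of order four of `SU_2(3)`. -/
theorem exists_quaternion : ∃ a b : ↥(SU 2 F 3), a * b * a⁻¹ * b⁻¹ = diag2 hF negN ∧
    b * b = diag2 hF negN := by
  obtain ⟨c, hc⟩ : IsSquare (-1 : F) := by
    refine (FiniteField.isSquare_iff ?_ (neg_ne_zero.2 one_ne_zero)).2 ?_
    · intro h
      haveI := ringChar.of_eq h
      exact two_ne hF (CharTwo.two_eq_zero)
    · rw [hF]
      norm_num
  have hc4 : c ^ (3 + 1) = 1 := by
    rw [show c ^ (3 + 1) = (c * c) * (c * c) by ring, ← hc]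
    ring
  let ι : {x : F // x ^ (3 + 1) = 1} := ⟨c, hc4⟩
  refine ⟨diag2 hF ι, anti2 hF oneN, ?_, ?_⟩
  · rw [mul_inv_eq_iff_eq_mul, mul_inv_eq_iff_eq_mul]
    refine mat_ext ?_
    simp only [mat_mul, mat_diag2, mat_anti2, negN, oneN, ι]
    ext i j
    fin_cases i <;> fin_cases j <;> simp [Matrix.mul_apply, Fin.sum_univ_two]
    · linear_combination -c * hc
    · linear_combination -c * hc
  · refine mat_ext ?_
    simp only [mat_mul, mat_diag2, mat_anti2, negN, oneN]
    ext i j
    fin_cases i <;> fin_cases j <;> simp [Matrix.mul_apply, Fin.sum_univ_two, show (-1 : F) ^ 3 = -1 by norm_num]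

theorem sv_negBlock (i : Fin 3) :
    sv (emb hF w01 (diag2 hF negN)) (Pi.single i (1 : F)) = (sgn (![true, true, false] i) : F) • Pi.single i 1 := by
  rw [sv_w01]
  have h3 : (-1 : F) ^ 3 = -1 := by norm_num
  funext j
  fin_cases i <;> fin_cases j <;> simp [mat_diag2, negN, sgn, h3]

theorem diag2_neg_central (u : ↥(SU 2 F 3)) : Commute (diag2 hF negN) u := by
  refine mat_ext ?_
  have h3 : (-1 : F) ^ 3 = -1 := by norm_num
  rw [mat_mul, mat_mul, mat_diag2, show ((negN : {x : F // x ^ (3 + 1) = 1}) : F) = -1 from rfl, h3]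
  ext i j
  fin_cases i <;> fin_cases j <;> simp [Matrix.mul_apply, Fin.sum_univ_two]

/-- A chart for two standard pairs over the field with nine elements. -/
theorem exists_chart_three {G : Type*} [Group G] {A B C V V' : Subgroup G}
    (hV : IsStandardUnitaryPair V A B F 3) (hV' : IsStandardUnitaryPair V' B C F 3)
    (hAC : ∀ x ∈ A, ∀ y ∈ C, x * y = y * x)
    (g : ↥(SU 4 F 3) →* G) (hg : g.range = V ⊔ V') : ∃ g', IsChart hF A B C V V' g' := by
  obtain ⟨π, hπV, hπk, -, hπA, hπB⟩ := exists_pair_hom hF hV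
  obtain ⟨π', hπV', hπk', -, hπB', hπC⟩ := exists_pair_hom hF hV'
  have hz : Subgroup.center ↥(SU 3 F 3) = ⊥ := center_eq_bot hF (by omega) rfl
  have hinj : Function.Injective π := (MonoidHom.ker_eq_bot_iff _).1 (le_bot_iff.1 (hπk.trans hz.le))
  have hinj' : Function.Injective π' := (MonoidHom.ker_eq_bot_iff _).1 (le_bot_iff.1 (hπk'.trans hz.le))
  rw [← range_w01 hF] at hπA hπB'
  rw [← range_w12 hF] at hπB hπC
  rw [← MonoidHom.range_comp] at hπA hπB hπB' hπC
  set φA := π.comp (emb hF w01) with hφA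
  set φC := π'.comp (emb hF w12) with hφC
  have hVg : V ≤ g.range := hg ▸ le_sup_left
  have hV'g : V' ≤ g.range := hg ▸ le_sup_right
  have hAV : φA.range ≤ V := by rintro _ ⟨u, rfl⟩; rw [← hπV]; exact ⟨_, rfl⟩
  have hCV : φC.range ≤ V' := by rintro _ ⟨u, rfl⟩; rw [← hπV']; exact ⟨_, rfl⟩
  have hiA : Function.Injective φA := hinj.comp (emb_injective hF w01)
  have hiC : Function.Injective φC := hinj'.comp (emb_injective hF w12)
  set z : ↥(SU 2 F 3) := diag2 hF negN with hz2
  set D := emb hF w01 z with hD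
  have hD0 : D ≠ 1 := fun h => by
    have := congrArg (fun x => sv x (Pi.single (0 : Fin 3) (1 : F)) 0) h
    rw [hD, hz2] at this
    simp only [sv_negBlock hF] at this
    simp [sgn, sv] at this
    exact neg_one_ne_one hF this
  have hgne : g.range ≠ ⊥ := fun h => by
    have hmem : π D ∈ g.range := hVg (hπV ▸ ⟨D, rfl⟩)
    rw [h, Subgroup.mem_bot, ← map_one π] at hmem
    exact hD0 (hinj hmem)
  have hker := ker_le_center_of_ne hF g hgne
  -- the lift of the central involution
  obtain ⟨a, b, hab, hbb⟩ := exists_quaternion hF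
  have hmapA := map_lifts_of_range hF g hker φA (hAV.trans hVg)
  have hmapC := map_lifts_of_range hF g hker φC (hCV.trans hV'g)
  obtain ⟨a', ha', hga⟩ : φA a ∈ (lifts g φA.range).map g := hmapA.symm ▸ ⟨a, rfl⟩
  obtain ⟨b', hb', hgb⟩ : φA b ∈ (lifts g φA.range).map g := hmapA.symm ▸ ⟨b, rfl⟩
  set t := a' * b' * a'⁻¹ * b'⁻¹ with ht
  have htA : t ∈ lifts g φA.range :=
    Subgroup.mul_mem _ (Subgroup.mul_mem _ (Subgroup.mul_mem _ ha' hb') (Subgroup.inv_mem _ ha'))
      (Subgroup.inv_mem _ hb')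
  have hgt : g t = π D := by
    rw [ht, map_mul, map_mul, map_mul, map_inv, map_inv, hga, hgb, ← map_inv, ← map_inv, ← map_mul, ← map_mul,
      ← map_mul, hab]
    rfl
  clear_value t
  have hcomA : ∀ x ∈ lifts g φA.range, Commute t x := fun x hx =>
    commute_lifts hF g hker (fun u hu => by
      obtain ⟨w, rfl⟩ := hu
      rw [hgt]
      exact (diag2_neg_central hF w).map φA) hx
  have hAC' : ∀ u ∈ φA.range, ∀ u' ∈ φC.range, Commute u u' := fun u hu u' hu' =>
    hAC u (hπA ▸ hu) u' (hπC ▸ hu')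
  have hcomC : ∀ x ∈ lifts g φC.range, Commute t x := fun x hx =>
    commute_lifts_lifts hF g hker hAC' htA hx
  have htt : t * t = 1 := by
    have hzc : b' * b' * t⁻¹ ∈ Subgroup.center ↥(SU 4 F 3) := hker (MonoidHom.mem_ker.2 (by
      rw [map_mul, map_mul, map_inv, hgb, hgt, ← map_mul, hbb, mul_inv_eq_one]
      rfl))
    have hta := hcomA a' ha'
    have htb := hcomA b' hb'
    have h1 : a' * b' * a'⁻¹ = t * b' := by rw [ht]; group
    have h2 : a' * (b' * b') * a'⁻¹ = t * t * (b' * b') := by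
      have : a' * (b' * b') * a'⁻¹ = (a' * b' * a'⁻¹) * (a' * b' * a'⁻¹) := by group
      rw [this, h1, mul_assoc, ← mul_assoc b' t, htb.symm.eq]
      group
    have h3 : a' * (b' * b') * a'⁻¹ = b' * b' := by
      have e : b' * b' = (b' * b' * t⁻¹) * t := by group
      have hc : Commute a' (b' * b') := by
        rw [e]
        exact Commute.mul_right (Subgroup.mem_center_iff.1 hzc a') hta.symm
      rw [hc.eq, mul_inv_cancel_right]
    rw [h3] at h2
    exact mul_eq_right.1 h2.symm
  have htc : t ∉ Subgroup.center ↥(SU 4 F 3) := fun h => by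
    have hDc : D ∈ Subgroup.center ↥(SU 3 F 3) := Subgroup.mem_center_iff.2 fun x => hinj (by
      obtain ⟨y, hy⟩ := hVg (hπV ▸ ⟨x, rfl⟩ : π x ∈ V)
      rw [map_mul, map_mul, ← hy, ← hgt, ← map_mul, ← map_mul, Subgroup.mem_center_iff.1 h y])
    rw [hz] at hDc
    exact hD0 (Subgroup.mem_bot.1 hDc)
  obtain ⟨v, hv, hvt⟩ := exists_frame_involution hF htt htc
  -- the two planes
  have hnc : ∀ (φ : ↥(SU 2 F 3) →* G), Function.Injective φ → (lifts g φ.range).map g = φ.range →
      ∃ x ∈ {x | x ^ 3 = 1 ∧ g x ∈ φ.range}, ∃ y ∈ {x | x ^ 3 = 1 ∧ g x ∈ φ.range}, ¬ Commute x y := by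
    intro φ hφ hmap
    by_contra h
    push Not at h
    have hab' : ∀ x ∈ lifts g φ.range, ∀ y ∈ lifts g φ.range, Commute x y := by
      intro x hx y hy
      induction hx, hy using Subgroup.closure_induction₂ with
      | mem x y hx hy => exact h x hx y hy
      | one_left => exact Commute.one_left _
      | one_right => exact Commute.one_right _
      | mul_left _ _ _ _ _ _ h1 h2 => exact h1.mul_left h2
      | mul_right _ _ _ _ _ _ h1 h2 => exact h1.mul_right h2
      | inv_left _ _ _ _ h1 => exact h1.inv_left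
      | inv_right _ _ _ _ h1 => exact h1.inv_right
    obtain ⟨x, hx, hgx⟩ : φ a ∈ (lifts g φ.range).map g := hmap.symm ▸ ⟨a, rfl⟩
    obtain ⟨y, hy, hgy⟩ : φ b ∈ (lifts g φ.range).map g := hmap.symm ▸ ⟨b, rfl⟩
    have h1 : φ (a * b * a⁻¹ * b⁻¹) = 1 := by
      rw [map_mul, map_mul, map_mul, map_inv, map_inv, ← hgx, ← hgy, ← map_inv, ← map_inv, ← map_mul, ← map_mul,
        ← map_mul, (hab' x hx y hy).eq, mul_inv_cancel_right, mul_inv_cancel, map_one]
    rw [hab, ← map_one φ] at h1
    exact hD0 (by rw [hD, hz2, hφ h1, map_one])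
  obtain ⟨hA0, hC0⟩ : lifts g φA.range ≤ stab (q := 3) (v 2) ⊓ stab (q := 3) (v 3) ∧
      lifts g φC.range ≤ stab (q := 3) (v 0) ⊓ stab (q := 3) (v 1) := by
    refine (split_commuting hF hv hvt {x | x ^ 3 = 1 ∧ g x ∈ φA.range} {x | x ^ 3 = 1 ∧ g x ∈ φC.range}
      (fun x hx => hx.1) (fun x hx => hx.1) (fun x hx => hcomA x (Subgroup.subset_closure hx))
      (fun x hx => hcomC x (Subgroup.subset_closure hx))
      (fun x hx y hy => commute_lifts_lifts hF g hker hAC' (Subgroup.subset_closure hx) (Subgroup.subset_closure hy))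
      (hnc φA hiA hmapA) (hnc φC hiC hmapC)).resolve_right fun h => ?_
    have h0 : sv t (v 0) = v 0 := (h.1 htA).1
    rw [hvt] at h0
    have h00 := congrArg (fun x => hermForm 4 F 3 x (v 0)) h0
    simp only [herm_smul_left, hv 0 0, if_pos, mul_one, sgn, Matrix.cons_val_zero, if_true] at h00
    exact neg_one_ne_one hF h00
  have hcard : ∀ (φ : ↥(SU 2 F 3) →* G) (i j : Fin 4), i ≠ j → Function.Injective φ →
      (lifts g φ.range).map g = φ.range → lifts g φ.range ≤ stab (q := 3) (v i) ⊓ stab (q := 3) (v j) →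
      lifts g φ.range = stab (q := 3) (v i) ⊓ stab (q := 3) (v j) ∧
      Set.InjOn g (stab (q := 3) (v i) ⊓ stab (q := 3) (v j) : Subgroup ↥(SU 4 F 3)) := by
    intro φ i j hij hφ hmap hle
    set S := stab (q := 3) (v i) ⊓ stab (q := 3) (v j)
    have hS : Nat.card S = Nat.card ↥(SU 2 F 3) := card_stab_two hF hv hij
    have hR : Nat.card φ.range = Nat.card ↥(SU 2 F 3) :=
      (Nat.card_congr (MonoidHom.ofInjective hφ).toEquiv).symm
    have h1 : Nat.card φ.range ≤ Nat.card (lifts g φ.range) := by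
      conv_lhs => rw [← hmap]
      exact Nat.card_le_card_of_surjective _ ((g.subgroupMap_surjective _))
    have heq : lifts g φ.range = S := Subgroup.eq_of_le_of_card_ge hle (by omega)
    refine ⟨heq, ?_⟩
    have hb : Function.Bijective (g.subgroupMap S) := by
      refine (Nat.bijective_iff_surjective_and_card _).2 ⟨g.subgroupMap_surjective _, ?_⟩
      rw [hS, ← hR, ← hmap, heq]
    intro x hx y hy hxy
    exact congrArg Subtype.val (hb.1 (a₁ := ⟨x, hx⟩) (a₂ := ⟨y, hy⟩) (Subtype.ext hxy))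
  obtain ⟨hAeq, hAinj⟩ := hcard φA 2 3 (by decide) hiA hmapA hA0
  obtain ⟨hCeq, -⟩ := hcard φC 0 1 (by decide) hiC hmapC hC0
  -- the middle subgroup
  obtain ⟨w, hw⟩ := exists_SU_map_orthonorm hF (f := ![Pi.single (2 : Fin 3) (1 : F), Pi.single 0 1])
    (f' := ![Pi.single (0 : Fin 3) (1 : F), Pi.single 1 1])
    (orthonorm_two hF (by rw [herm_single_single hF, if_pos rfl]) (by rw [herm_single_single hF, if_pos rfl])
      (by rw [herm_single_single hF, if_neg (by decide)]))
    (orthonorm_two hF (by rw [herm_single_single hF, if_pos rfl]) (by rw [herm_single_single hF, if_pos rfl])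
      (by rw [herm_single_single hF, if_neg (by decide)]))
    (by omega)
  have hw2 : sv w (Pi.single (2 : Fin 3) 1) = Pi.single 0 1 := hw 0
  have hw0 : sv w (Pi.single (0 : Fin 3) 1) = Pi.single 1 1 := hw 1
  obtain ⟨w', hw'⟩ := hVg (hπV ▸ ⟨w, rfl⟩ : π w ∈ V)
  have hconjB : (stab (q := 3) (v 2) ⊓ stab (q := 3) (v 3)).map (MulAut.conj w').toMonoidHom
      = lifts g B := by
    rw [← hAeq]
    refine (MonoidHom.map_closure _ _).trans (congrArg Subgroup.closure (Set.ext fun y => ?_))
    have hBmem : ∀ x : G, x ∈ φA.range ↔ π w * x * (π w)⁻¹ ∈ B := by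
      intro x
      have hconj : (stab (q := 3) (Pi.single (2 : Fin 3) (1 : F))).map (MulAut.conj w).toMonoidHom
          = stab (q := 3) (Pi.single (0 : Fin 3) (1 : F)) := by rw [map_conj_stab hF, hw2]
      rw [← range_w01 hF, ← range_w12 hF] at hconj
      constructor
      · rintro ⟨u, rfl⟩
        obtain ⟨v', hv'⟩ : w * emb hF w01 u * w⁻¹ ∈ (emb hF w12).range := hconj ▸ ⟨_, ⟨u, rfl⟩, rfl⟩
        rw [← hπB]
        exact ⟨v', by show π (emb hF w12 v') = _; rw [hv', map_mul, map_mul, map_inv]; rfl⟩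
      · intro hx
        rw [← hπB] at hx
        obtain ⟨v', hv'⟩ := hx
        obtain ⟨y, ⟨u, rfl⟩, hu⟩ : emb hF w12 v' ∈ ((emb hF w01).range).map (MulAut.conj w).toMonoidHom :=
          hconj.symm ▸ ⟨v', rfl⟩
        refine ⟨u, ?_⟩
        have : π (w * emb hF w01 u * w⁻¹) = π w * x * (π w)⁻¹ := by rw [← hv']; exact congrArg π hu
        rw [map_mul, map_mul, map_inv] at this
        exact mul_left_cancel (mul_right_cancel this)
    constructor
    · rintro ⟨x, ⟨hx3, hx⟩, rfl⟩
      refine ⟨?_, ?_⟩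
      · show (w' * x * w'⁻¹) ^ 3 = 1
        rw [conj_pow, hx3, mul_one, mul_inv_cancel]
      · show g (w' * x * w'⁻¹) ∈ B
        rw [map_mul, map_mul, map_inv, hw']
        exact (hBmem _).1 hx
    · rintro ⟨hy3, hy⟩
      refine ⟨w'⁻¹ * y * w', ⟨?_, ?_⟩, ?_⟩
      · have := conj_pow (a := w'⁻¹) (b := y) (i := 3)
        rw [inv_inv] at this
        rw [this, hy3, mul_one, inv_mul_cancel]
      · rw [hBmem, map_mul, map_mul, map_inv, hw',
          show π w * ((π w)⁻¹ * g y * π w) * (π w)⁻¹ = g y by group]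
        exact hy
      · show w' * (w'⁻¹ * y * w') * w'⁻¹ = y
        group
  set T := w' * t * w'⁻¹ with hT
  set D2 := w * D * w⁻¹ with hD2
  clear_value T D2
  have hgT : g T = π D2 := by rw [hT, map_mul, map_mul, map_inv, hw', hgt, hD2, map_mul, map_mul, map_inv]
  -- the action of the two involutions on the standard basis
  obtain ⟨c, hc⟩ : ∃ c : F, sv w (Pi.single (1 : Fin 3) 1) = c • Pi.single 2 1 := by
    refine ⟨sv w (Pi.single (1 : Fin 3) 1) 2, ?_⟩
    have h0 : ∀ i : Fin 3, ∀ k : Fin 3, sv w (Pi.single k 1) = Pi.single i 1 → k ≠ 1 →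
        sv w (Pi.single (1 : Fin 3) 1) i = 0 := by
      intro i k hik hk
      have h := sv_herm w (Pi.single (1 : Fin 3) 1) (Pi.single k (1 : F))
      rw [hik, herm_single_right _ _ (by omega), herm_single_single hF, if_neg hk.symm] at h
      exact h
    funext i
    fin_cases i
    · simpa using h0 0 2 hw2 (by decide)
    · simpa using h0 1 0 hw0 (by decide)
    · simp
  have hc0 : c ≠ 0 := by
    intro h
    have h1 := sv_herm w (Pi.single (1 : Fin 3) 1) (Pi.single (1 : Fin 3) (1 : F))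
    rw [hc, h, zero_smul, herm_zero_left, herm_single_single hF, if_pos rfl] at h1
    exact zero_ne_one h1
  have hD2w : ∀ x, sv D2 (sv w x) = sv w (sv D x) := fun x => by
    rw [hD2, sv_mul, sv_mul, sv_inv_sv]
  have hDs : ∀ i, sv D (Pi.single i (1 : F)) = (sgn (![true, true, false] i) : F) • Pi.single i 1 :=
    sv_negBlock hF
  have hD2s : ∀ i, sv D2 (Pi.single i (1 : F)) = (sgn (![false, true, true] i) : F) • Pi.single i 1 := by
    intro i
    fin_cases i
    · have h := hD2w (Pi.single (2 : Fin 3) 1)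
      rw [hDs, sv_smul, hw2] at h
      exact h
    · have h := hD2w (Pi.single (0 : Fin 3) 1)
      rw [hDs, sv_smul, hw0] at h
      exact h
    · have h := hD2w (Pi.single (1 : Fin 3) 1)
      rw [hDs, sv_smul, hc, sv_smul, smul_comm] at h
      exact smul_right_injective _ hc0 h
  have hstd : Orthonorm 3 fun i : Fin 3 => (Pi.single i (1 : F) : Fin 3 → F) := herm_single_single hF
  have hDD : D * D2 = D2 * D := sv_eq_of_frame hF hstd fun i => by
    rw [sv_mul, sv_mul, hD2s, sv_smul, hDs, sv_smul, hD2s, smul_comm]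
  -- the involution normalises the lifts of the middle subgroup
  have htH : ∀ x ∈ lifts g B, t * x * t⁻¹ ∈ lifts g B := by
    intro x hx
    have hDB : ∀ u ∈ B, π D * u * (π D)⁻¹ ∈ B := by
      intro u hu
      rw [← hπB] at hu ⊢
      obtain ⟨y, rfl⟩ := hu
      have hm : D * emb hF w12 y * D⁻¹ ∈ (emb hF w12).range := by
        rw [range_w12 hF]
        have h : (stab (q := 3) (Pi.single (0 : Fin 3) (1 : F))).map (MulAut.conj D).toMonoidHom
            = stab (q := 3) (Pi.single (0 : Fin 3) (1 : F)) := by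
          rw [map_conj_stab hF, hDs, stab_smul hF]
          simp [sgn]
        rw [← h]
        exact ⟨_, by rw [← range_w12 hF]; exact ⟨y, rfl⟩, rfl⟩
      obtain ⟨y', hy'⟩ := hm
      exact ⟨y', by show π (emb hF w12 y') = _; rw [hy', map_mul, map_mul, map_inv]; rfl⟩
    induction hx using Subgroup.closure_induction with
    | mem y hy =>
      refine Subgroup.subset_closure ⟨by rw [conj_pow, hy.1, mul_one, mul_inv_cancel], ?_⟩
      rw [map_mul, map_mul, map_inv, hgt]
      exact hDB _ hy.2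
    | one => rw [mul_one, mul_inv_cancel]; exact one_mem _
    | mul y y' _ _ h1 h2 =>
      have := mul_mem h1 h2
      rwa [show t * y * t⁻¹ * (t * y' * t⁻¹) = t * (y * y') * t⁻¹ by group] at this
    | inv y _ h1 =>
      have := inv_mem h1
      rwa [show (t * y * t⁻¹)⁻¹ = t * y⁻¹ * t⁻¹ by group] at this
  have htA' : t ∈ stab (q := 3) (v 2) ⊓ stab (q := 3) (v 3) := hA0 htA
  have hTH : T ∈ lifts g B := hconjB ▸ ⟨t, htA', hT.symm⟩
  have htT : Commute t T := by
    have h1 : t * T * t⁻¹ ∈ lifts g B := htH T hTH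
    rw [← hconjB] at hTH h1
    obtain ⟨x1, hx1, e1⟩ := hTH
    obtain ⟨x2, hx2, e2⟩ := h1
    have hg12 : g (t * T * t⁻¹) = g T := by
      rw [map_mul, map_mul, map_inv, hgt, hgT, ← map_mul, ← map_inv, ← map_mul, hDD, mul_inv_cancel_right]
    rw [← e2, ← e1] at hg12
    simp only [MulEquiv.coe_toMonoidHom, MulAut.conj_apply, map_mul, map_inv] at hg12
    have h12 := hAinj hx2 hx1 (mul_left_cancel (mul_right_cancel hg12))
    rw [h12] at e2
    exact mul_inv_eq_iff_eq_mul.1 (e2.symm.trans e1)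
  have hTT : T * T = 1 := by
    rw [hT, show w' * t * w'⁻¹ * (w' * t * w'⁻¹) = w' * (t * t) * w'⁻¹ by group, htt, mul_one, mul_inv_cancel]
  have hTc : T ∉ Subgroup.center ↥(SU 4 F 3) := fun h => htc (by
    rw [show t = w'⁻¹ * T * w' by rw [hT]; group]
    rw [Subgroup.mem_center_iff.1 h w'⁻¹, mul_assoc, inv_mul_cancel, mul_one]
    exact h)
  have htTc : t * T ∉ Subgroup.center ↥(SU 4 F 3) := fun h => by
    have hc' : D * D2 ∈ Subgroup.center ↥(SU 3 F 3) := Subgroup.mem_center_iff.2 fun x => hinj (by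
      obtain ⟨y, hy⟩ := hVg (hπV ▸ ⟨x, rfl⟩ : π x ∈ V)
      have e : g (t * T) = π (D * D2) := by rw [map_mul, map_mul, hgt, hgT]
      rw [map_mul π x, map_mul π (D * D2) x, ← hy, ← e, ← map_mul, ← map_mul, Subgroup.mem_center_iff.1 h y])
    rw [hz, Subgroup.mem_bot] at hc'
    have h0 := congrArg (fun x => sv x (Pi.single (0 : Fin 3) (1 : F)) 0) hc'
    simp only [sv_mul, hD2s, sv_smul, hDs, sgn, Matrix.cons_val_zero, if_true] at h0
    simp [sv] at h0
    exact neg_one_ne_one hF h0
  obtain ⟨f, hf, hft, hfT⟩ := exists_frame_pair hF htt hTT htT htc hTc htTc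
  obtain ⟨eA, eC⟩ := stab_pair_congr hF hv hf hvt hft
  obtain ⟨eB, -⟩ := stab_pair_congr hF (t := T) (v := fun i => sv w' (v i)) (w := ![f 1, f 2, f 0, f 3])
    (fun i j => by rw [sv_herm, hv]) (fun i j => by
      have hp : ∀ i, (![f 1, f 2, f 0, f 3] : Fin 4 → Fin 4 → F) i = f (![1, 2, 0, 3] i) := fun i => by
        fin_cases i <;> rfl
      rw [hp, hp, hf]
      congr 1
      exact propext (by revert i j; decide))
    (fun i => by rw [hT, sv_mul, sv_mul, sv_inv_sv, hvt, sv_smul])
    (fun i => by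
      fin_cases i
      · exact hfT 1
      · exact hfT 2
      · exact hfT 0
      · exact hfT 3)
  have hB : (stab (q := 3) (f 0) ⊓ stab (q := 3) (f 3)).map g = B := by
    have e0 : (![f 1, f 2, f 0, f 3] : Fin 4 → Fin 4 → F) 2 = f 0 := rfl
    have e3 : (![f 1, f 2, f 0, f 3] : Fin 4 → Fin 4 → F) 3 = f 3 := rfl
    rw [e0, e3] at eB
    rw [← eB, ← map_conj_stab_inf hF, hconjB, ← hπB]
    exact map_lifts_of_range hF g hker _ (by
      rintro _ ⟨u, rfl⟩; exact hVg (hπV ▸ ⟨_, rfl⟩))
  have hA : (stab (q := 3) (f 2) ⊓ stab (q := 3) (f 3)).map g = A := by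
    rw [← eA, ← hAeq, hmapA, hπA]
  have hC : (stab (q := 3) (f 0) ⊓ stab (q := 3) (f 1)).map g = C := by
    rw [← eC, ← hCeq, hmapC, hπC]
  have hblocks : ∀ (ρ : ↥(SU 3 F 3) →* G) (W P Q : Subgroup G), ρ.range = W →
      (ρ.comp (emb hF w01)).range = P → (ρ.comp (emb hF w12)).range = Q → W = P ⊔ Q := by
    rintro ρ W P Q rfl rfl rfl
    rw [MonoidHom.range_comp, MonoidHom.range_comp, ← Subgroup.map_sup,
      blocks_generate_three hF le_rfl _ le_sup_left le_sup_right, ← MonoidHom.range_eq_map]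
  have hVgen := hblocks π V A B hπV hπA hπB
  have hV'gen := hblocks π' V' B C hπV' hπB' hπC
  have hcV : ∀ (ρ : ↥(SU 3 F 3) →* G) (W : Subgroup G) (S : Subgroup ↥(SU 4 F 3)), Function.Injective ρ →
      ρ.range = W → Nat.card S = Nat.card ↥(SU 3 F 3) → W ≤ S.map g → S.map g = W := by
    intro ρ W S hρ hW hS hle
    haveI : Finite ↥(S.map g) := Finite.of_surjective _ (g.subgroupMap_surjective S)
    refine (Subgroup.eq_of_le_of_card_ge hle ?_).symm
    have h1 : Nat.card (S.map g) ≤ Nat.card S := Nat.card_le_card_of_surjective _ (g.subgroupMap_surjective _)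
    rw [← hW, ← Nat.card_congr (MonoidHom.ofInjective hρ).toEquiv]
    omega
  refine exists_chart_of_frame hF g hker f hf hA hB hC
    (hcV π V _ hinj hπV (card_stab_one hF hf) ?_) (hcV π' V' _ hinj' hπV' (card_stab_first hF hf) ?_)
  · rw [hVgen, ← hA, ← hB, sup_le_iff]
    exact ⟨Subgroup.map_mono inf_le_right, Subgroup.map_mono inf_le_right⟩
  · rw [hV'gen, ← hB, ← hC, sup_le_iff]
    exact ⟨Subgroup.map_mono inf_le_left, Subgroup.map_mono inf_le_left⟩

end CfsgLib.Phan
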